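import Mathlib
import Cfsg.Agent.H69.CosetDef

/-!
# Non-solvable chief factors and cosets of `p`-elements

Let a group `G` act on the finite group `Q` through `A : G →* MulAut Q`, without proper non-trivial invariant
subgroups, `Q` not solvable. Let `L` be a minimal normal subgroup of `Q`. Then `L` is simple and not abelian. If all
the elements `A a * conj x` (`x : Q`) have order a power of the prime `p`, then `L` has an automorphism `u`, not
inner, with `PCos p u`.
-/

set_option autoImplicit false

namespace Cfsg.Agent.H69.EqChief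

open Subgroup Cfsg.Agent.H69.CosetP

/-- minimal normal subgroups -/
structure MinN {Q : Type*} [Group Q] (L : Subgroup Q) : Prop where
  normal : L.Normal
  ne : L ≠ ⊥
  min : ∀ J : Subgroup Q, J.Normal → J ≤ L → J = ⊥ ∨ J = L

variable {Q : Type*} [Group Q]

theorem MinN.map {L : Subgroup Q} (h : MinN L) (α : MulAut Q) : MinN (L.map (α : Q →* Q)) := by
  have hn := h.normal
  refine ⟨h.normal.map _ α.surjective, ?_, ?_⟩
  · rw [Ne, Subgroup.map_eq_bot_iff_of_injective _ α.injective]
    exact h.ne
  · intro J hJ hJL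
    have h1 : (J.comap (α : Q →* Q)) ≤ L := by
      rw [← Subgroup.comap_map_eq_self_of_injective (f := (α : Q →* Q)) α.injective L]
      exact Subgroup.comap_mono hJL
    have h2 : (J.comap (α : Q →* Q)).map (α : Q →* Q) = J := Subgroup.map_comap_eq_self_of_surjective α.surjective J
    rcases h.min _ (hJ.comap _) h1 with h3 | h3
    · left
      rw [← h2, h3, Subgroup.map_bot]
    · right
      rw [← h2, h3]

/-- distinct minimal normal subgroups commute -/
theorem MinN.commute {L L' : Subgroup Q} (h : MinN L) (h' : MinN L') (hne : L ≠ L') {x y : Q} (hx : x ∈ L)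
    (hy : y ∈ L') : Commute x y := by
  have h1 := h.normal
  have h2 := h'.normal
  have hd : Disjoint L L' := by
    rw [disjoint_iff]
    rcases h.min (L ⊓ L') inferInstance inf_le_left with h3 | h3
    · exact h3
    · exfalso
      have h4 : L ≤ L' := by rw [← h3]; exact inf_le_right
      rcases h'.min L h1 h4 with h5 | h5
      · exact h.ne h5
      · exact hne h5
  exact Subgroup.commute_of_normal_of_disjoint L L' h1 h2 hd x y hx hy

section

variable {G : Type*} [Group G] {A : G →* MulAut Q}
  (hchief : ∀ J : Subgroup Q, (∀ g : G, J.map (A g : Q →* Q) ≤ J) → J = ⊥ ∨ J = ⊤)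

include hchief

theorem iSup_eq_top {L : Subgroup Q} (h : MinN L) : (⨆ g : G, L.map (A g : Q →* Q)) = ⊤ := by
  rcases hchief (⨆ g : G, L.map (A g : Q →* Q)) (fun g => by
    rw [Subgroup.map_iSup]
    refine iSup_le fun g' => ?_
    rw [Subgroup.map_map]
    have : ((A g : Q →* Q)).comp (A g' : Q →* Q) = (A (g * g') : Q →* Q) := by rw [map_mul]; rfl
    rw [this]
    exact le_iSup (fun g : G => L.map (A g : Q →* Q)) (g * g')) with h1 | h1
  · exfalso
    apply h.ne
    rw [eq_bot_iff, ← h1]
    refine le_trans ?_ (le_iSup (fun g : G => L.map (A g : Q →* Q)) 1)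
    rw [map_one]
    intro x hx
    exact ⟨x, hx, rfl⟩
  · exact h1

/-- minimal normal subgroups are simple -/
theorem simple {L : Subgroup Q} (h : MinN L) : IsSimpleGroup L := by
  have hLn := h.normal
  have : Nontrivial L := by rw [Subgroup.nontrivial_iff_ne_bot]; exact h.ne
  refine ⟨fun J hJ => ?_⟩
  have h1 : (J.map L.subtype).Normal := by
    have h2 : (⨆ g : G, L.map (A g : Q →* Q)) ≤ normalizer ((J.map L.subtype : Subgroup Q) : Set Q) := by
      refine iSup_le fun g => ?_
      intro x hx
      by_cases hg : L.map (A g : Q →* Q) = L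
      · rw [hg] at hx
        rw [mem_normalizer_iff]
        have key : ∀ z ∈ L, ∀ y, y ∈ J.map L.subtype → z * y * z⁻¹ ∈ J.map L.subtype := by
          rintro z hz _ ⟨y, hy, rfl⟩
          exact ⟨⟨z, hz⟩ * y * ⟨z, hz⟩⁻¹, hJ.conj_mem y hy _, rfl⟩
        intro y
        refine ⟨key x hx y, fun h5 => ?_⟩
        have h6 := key x⁻¹ (inv_mem hx) _ h5
        have h7 : x⁻¹ * (x * y * x⁻¹) * x⁻¹⁻¹ = y := by group
        rwa [h7] at h6
      · rw [mem_normalizer_iff]
        intro y
        have key : ∀ z, (z ∈ J.map L.subtype → x * z * x⁻¹ = z) := by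
          rintro _ ⟨z, hz, rfl⟩
          rw [mul_inv_eq_iff_eq_mul]
          exact ((h.map (A g)).commute h hg hx z.2).eq
        constructor
        · intro hy
          rw [key y hy]
          exact hy
        · intro hy
          have h8 : x⁻¹ * (x * y * x⁻¹) * x = x * y * x⁻¹ := by
            have h9 := key _ hy
            rw [mul_inv_eq_iff_eq_mul] at h9
            rw [mul_assoc, ← h9, inv_mul_cancel_left]
          have h10 : y = x * y * x⁻¹ := by
            rw [← h8]; group
          rw [h10]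
          exact hy
    rw [iSup_eq_top hchief h] at h2
    rw [← Subgroup.normalizer_eq_top_iff]
    exact top_le_iff.1 h2
  rcases h.min _ h1 (Subgroup.map_subtype_le J) with h3 | h3
  · left
    rwa [Subgroup.map_eq_bot_iff_of_injective _ L.subtype_injective] at h3
  · right
    rw [eq_top_iff]
    intro x _
    have h4 : (x : Q) ∈ J.map L.subtype := by rw [h3]; exact x.2
    obtain ⟨y, hy, hyx⟩ := h4
    have : y = x := Subtype.ext hyx
    rwa [← this]

/-- minimal normal subgroups are not abelian -/
theorem noncomm {L : Subgroup Q} (h : MinN L) (hns : ¬ Group.IsSolvable Q) : ∃ a b : L, a * b ≠ b * a := by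
  by_contra hcon
  push Not at hcon
  have h1 : L ≤ center Q := by
    intro x hx
    have h2 : (⨆ g : G, L.map (A g : Q →* Q)) ≤ centralizer {x} := by
      refine iSup_le fun g => ?_
      intro y hy
      rw [mem_centralizer_singleton_iff]
      by_cases hg : L.map (A g : Q →* Q) = L
      · rw [hg] at hy
        exact congrArg Subtype.val (hcon ⟨y, hy⟩ ⟨x, hx⟩)
      · exact ((h.map (A g)).commute h hg hy hx).eq
    rw [iSup_eq_top hchief h] at h2
    rw [mem_center_iff]
    intro y
    exact mem_centralizer_singleton_iff.1 (h2 (mem_top y))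
  rcases hchief (center Q) (fun g =>
    (Subgroup.characteristic_iff_map_eq.1 (inferInstance : (center Q).Characteristic) (A g)).le) with h2 | h2
  · rw [h2, le_bot_iff] at h1
    exact h.ne h1
  · apply hns
    have h3 : ∀ a b : Q, a * b = b * a := by
      intro a b
      have h4 : b ∈ center Q := by rw [h2]; exact mem_top b
      exact mem_center_iff.1 h4 a
    exact Group.isSolvable_of_comm h3

end

/-! ### The twisted elements -/

/-- restriction of an automorphism to an invariant subgroup -/
noncomputable def rs {L : Subgroup Q} (β : MulAut Q) (h : L.map (β : Q →* Q) = L) : MulAut L :=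
  (MulEquiv.subgroupMap β L).trans (MulEquiv.subgroupCongr h)

theorem coe_rs {L : Subgroup Q} (β : MulAut Q) (h : L.map (β : Q →* Q) = L) (y : L) : (rs β h y : Q) = β y := rfl

theorem map_pow_succ {L : Subgroup Q} (α : MulAut Q) (n : ℕ) :
    L.map ((α ^ (n + 1) : MulAut Q) : Q →* Q) = (L.map ((α ^ n : MulAut Q) : Q →* Q)).map (α : Q →* Q) := by
  rw [Subgroup.map_map, pow_succ']
  rfl

/-- the first return -/
theorem exists_return [Finite Q] (L : Subgroup Q) (α : MulAut Q) :
    ∃ s : ℕ, 0 < s ∧ L.map ((α ^ s : MulAut Q) : Q →* Q) = L ∧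
      ∀ j, 0 < j → j < s → L.map ((α ^ j : MulAut Q) : Q →* Q) ≠ L := by
  classical
  have hfin : Finite (MulAut Q) := Finite.of_injective (fun f : MulAut Q => (f : Q → Q)) DFunLike.coe_injective
  have h : ∃ s : ℕ, 0 < s ∧ L.map ((α ^ s : MulAut Q) : Q →* Q) = L := by
    refine ⟨orderOf α, orderOf_pos α, ?_⟩
    rw [pow_orderOf_eq_one]
    exact Subgroup.map_id L
  refine ⟨Nat.find h, (Nat.find_spec h).1, (Nat.find_spec h).2, fun j hj hjs hL => ?_⟩
  exact Nat.find_min h hjs ⟨hj, hL⟩

theorem pow_apply {L : Subgroup Q} (hL : MinN L) (α : MulAut Q) {x : Q} (hx : x ∈ L) {y : Q} (hy : y ∈ L) :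
    ∀ j : ℕ, (∀ i, 0 < i → i < j + 1 → L.map ((α ^ i : MulAut Q) : Q →* Q) ≠ L) →
      ((α * MulAut.conj x) ^ (j + 1)) y = (α ^ (j + 1)) (x * y * x⁻¹) := by
  intro j
  induction j with
  | zero =>
    intro _
    rw [zero_add, pow_one, pow_one]
    rfl
  | succ j ih =>
    intro h
    have h1 := ih fun i hi hij => h i hi (by omega)
    rw [pow_succ', MulAut.mul_apply, h1, pow_succ' α (j + 1), MulAut.mul_apply, MulAut.mul_apply, MulAut.conj_apply]
    congr 1
    have h2 : (α ^ (j + 1)) (x * y * x⁻¹) ∈ L.map ((α ^ (j + 1) : MulAut Q) : Q →* Q) :=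
      ⟨_, mul_mem (mul_mem hx hy) (inv_mem hx), rfl⟩
    have h3 : Commute x ((α ^ (j + 1)) (x * y * x⁻¹)) :=
      hL.commute (hL.map _) (h (j + 1) (by omega) (by omega)).symm hx h2
    rw [h3.eq, mul_inv_cancel_right]

/-- **The main theorem on chief factors.** -/
theorem main [Finite Q] {G : Type*} [Group G] {A : G →* MulAut Q}
    (hchief : ∀ J : Subgroup Q, (∀ g : G, J.map (A g : Q →* Q) ≤ J) → J = ⊥ ∨ J = ⊤) (hns : ¬ Group.IsSolvable Q)
    {L : Subgroup Q} (hL : MinN L) {p : ℕ} (hp : p.Prime) {a : G}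
    (ha : ∀ x : Q, ∃ k : ℕ, (A a * MulAut.conj x) ^ p ^ k = 1) :
    IsSimpleGroup L ∧ (∃ x y : L, x * y ≠ y * x) ∧ ∃ u : MulAut L, u ∉ (MulAut.conj : L →* MulAut L).range ∧
      PCos p u := by
  have hs := simple hchief hL
  have hna := noncomm hchief hL hns
  have hc := center_eq_bot hna
  obtain ⟨s, hs0, hsL, hsmin⟩ := exists_return L (A a)
  obtain ⟨j, rfl⟩ : ∃ j, s = j + 1 := ⟨s - 1, by omega⟩
  set u := rs (A a ^ (j + 1)) hsL with hu
  have key : ∀ x : L, ∃ k : ℕ, (u * MulAut.conj x) ^ p ^ k = 1 := by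
    intro x
    obtain ⟨k, hk⟩ := ha x
    refine ⟨k, ?_⟩
    have h1 : ∀ y : L, (((u * MulAut.conj x) y : L) : Q) = ((A a * MulAut.conj (x : Q)) ^ (j + 1)) y := by
      intro y
      rw [pow_apply hL (A a) x.2 y.2 j fun i hi hij => hsmin i hi hij]
      rfl
    have h2 : ∀ (m : ℕ) (y : L), ((((u * MulAut.conj x) ^ m) y : L) : Q) =
        (((A a * MulAut.conj (x : Q)) ^ (j + 1)) ^ m) y := by
      intro m
      induction m with
      | zero => intro y; rfl
      | succ m ih =>
        intro y
        rw [pow_succ', MulAut.mul_apply, h1, ih, pow_succ' _ m, MulAut.mul_apply]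
    apply MulEquiv.ext
    intro y
    apply Subtype.ext
    rw [h2, ← pow_mul, mul_comm, pow_mul, hk, one_pow]
    rfl
  have hP : PCos p u := by
    intro n
    obtain ⟨k, hk⟩ := key (u⁻¹ n)
    refine ⟨k, ?_⟩
    have h1 : MulAut.conj n * u = u * MulAut.conj (u⁻¹ n) := by
      apply MulEquiv.ext
      intro y
      simp only [MulAut.mul_apply, MulAut.conj_apply, map_mul, map_inv, MulAut.apply_inv_self]
    rw [h1, hk]
  refine ⟨hs, hna, u, ?_, hP⟩
  rintro ⟨g, hg⟩
  rw [← hg] at hP
  have h1 : IsPGroup p L := fun y => hP.inner hc y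
  have := Fact.mk hp
  have hnt : Nontrivial L := hs.toNontrivial
  have h2 := h1.center_nontrivial
  rw [hc] at h2
  exact not_nontrivial (⊥ : Subgroup L) h2

end Cfsg.Agent.H69.EqChief
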