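import Mathlib
import Cfsg.Agent.H550.Kegel

/-!
# Equal order pairs

`G` a finite group, `N` a normal subgroup which is not nilpotent, such that for all `x ∉ N` all the elements of the
coset `x N` have the same order. Then there is a prime `p` such that all elements outside `N` have order a power of
`p`, and `P ∩ P ^ g ≤ N` for all Sylow `p`-subgroups `P` and `g ∉ P`.
-/

set_option autoImplicit false

namespace Cfsg.Agent.H69.EqOrd

open Subgroup

variable {G : Type*} [Group G] [Finite G] {N : Subgroup G} [N.Normal]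

/-- no element of prime order outside `N` -/
theorem no_prime (heq : ∀ x : G, x ∉ N → ∀ n ∈ N, orderOf (x * n) = orderOf x) (hnil : ¬ Group.IsNilpotent N)
    {q : ℕ} (hq : q.Prime) {y : G} (hy : orderOf y = q) : y ∈ N := by
  by_contra hyN
  refine hnil (H550.Kegel.isNilpotent_of_coset hq _ G N y rfl ?_ fun h hh => ?_)
  · rw [Subgroup.normalizer_eq_top]
    trivial
  · have h1 : h * y = y * (y⁻¹ * h * y) := by group
    have h2 : y⁻¹ * h * y ∈ N := by
      have := (inferInstance : N.Normal).conj_mem h hh y⁻¹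
      rwa [inv_inv] at this
    rw [h1, ← orderOf_dvd_iff_pow_eq_one, heq y hyN _ h2, hy]

omit [N.Normal] in
/-- the centralizers in `N` of the `p`-elements outside `N` are `p`-groups -/
theorem not_comm (heq : ∀ x : G, x ∉ N → ∀ n ∈ N, orderOf (x * n) = orderOf x) {p q : ℕ} (hp : p.Prime)
    (hq : q.Prime) (hpq : q ≠ p) {a y : G} (ha : a ∉ N) {k : ℕ} (hap : a ^ p ^ k = 1) (hyN : y ∈ N)
    (hy : orderOf y = q) (hcomm : Commute a y) : False := by
  have h1 := heq a ha y hyN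
  have h2 : (orderOf a).Coprime (orderOf y) := by
    rw [hy]
    refine Nat.Coprime.coprime_dvd_left (orderOf_dvd_of_pow_eq_one hap) (Nat.Coprime.pow_left k ?_)
    exact (Nat.coprime_primes hp hq).2 hpq.symm
  rw [hcomm.orderOf_mul_eq_mul_orderOf_of_coprime h2, hy] at h1
  have h3 : 0 < orderOf a := orderOf_pos a
  have h4 := hq.one_lt
  nlinarith

/-- a fixed point in a coset -/
theorem exists_comm {p q : ℕ} (hp : p.Prime) (hq : q.Prime) (hpq : q ≠ p) {D : Subgroup G} (hD : IsPGroup p D)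
    (hDN : ¬ D ≤ N) {y : G} (hyN : y ∈ N) (hyD : y ∈ normalizer (D : Set G)) (hy : orderOf y = q) :
    ∃ a ∈ D, a ∉ N ∧ Commute a y := by
  classical
  have hpf := Fact.mk hp
  have hqf := Fact.mk hq
  obtain ⟨d, hd, hdN⟩ := SetLike.not_le_iff_exists.1 hDN
  have hmem : ∀ z ∈ normalizer (D : Set G), z ∈ N → ∀ a : G, (a ∈ D ∧ d⁻¹ * a ∈ N) →
      (z * a * z⁻¹ ∈ D ∧ d⁻¹ * (z * a * z⁻¹) ∈ N) := by
    rintro z hz hzN a ⟨h1, h2⟩
    refine ⟨(mem_normalizer_iff.1 hz a).1 h1, ?_⟩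
    have h3 : d⁻¹ * (z * a * z⁻¹) = (d⁻¹ * z * d) * (d⁻¹ * a) * z⁻¹ := by group
    rw [h3]
    refine mul_mem (mul_mem ?_ h2) (inv_mem hzN)
    have := (inferInstance : N.Normal).conj_mem z hzN d⁻¹
    rwa [inv_inv] at this
  let X := {a : G // a ∈ D ∧ d⁻¹ * a ∈ N}
  let σ : Equiv.Perm X :=
    { toFun := fun a => ⟨y * a.1 * y⁻¹, hmem y hyD hyN a.1 a.2⟩
      invFun := fun a => ⟨y⁻¹ * a.1 * y, by
        have := hmem y⁻¹ (inv_mem hyD) (inv_mem hyN) a.1 a.2
        rwa [inv_inv] at this⟩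
      left_inv := fun a => by apply Subtype.ext; simp only; group
      right_inv := fun a => by apply Subtype.ext; simp only; group }
  have hσ : ∀ (n : ℕ) (a : X), ((σ ^ n) a : G) = y ^ n * a.1 * (y ^ n)⁻¹ := by
    intro n
    induction n with
    | zero => intro a; simp
    | succ n ih =>
      intro a
      rw [pow_succ', Equiv.Perm.mul_apply]
      change y * ((σ ^ n) a : G) * y⁻¹ = _
      rw [ih a]
      group
  have hσq : σ ^ q ^ 1 = 1 := by
    apply Equiv.ext
    intro a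
    apply Subtype.ext
    rw [pow_one, hσ, ← hy, pow_orderOf_eq_one]
    simp
  have : Fintype X := Fintype.ofFinite X
  have hcard : Fintype.card X = Nat.card (D ⊓ N : Subgroup G) := by
    rw [← Nat.card_eq_fintype_card]
    refine Nat.card_congr
      { toFun := fun a => ⟨d⁻¹ * a.1, mem_inf.2 ⟨mul_mem (inv_mem hd) a.2.1, a.2.2⟩⟩
        invFun := fun a => ⟨d * a.1, mul_mem hd (mem_inf.1 a.2).1, by
          rw [inv_mul_cancel_left]; exact (mem_inf.1 a.2).2⟩
        left_inv := fun a => by apply Subtype.ext; simp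
        right_inv := fun a => by apply Subtype.ext; simp }
  have hnd : ¬ q ∣ Fintype.card X := by
    rw [hcard]
    intro h
    obtain ⟨k, hk⟩ := (IsPGroup.iff_card).1 (hD.to_le (inf_le_left : D ⊓ N ≤ D))
    rw [hk] at h
    exact hpq ((Nat.prime_dvd_prime_iff_eq hq hp).1 (hq.dvd_of_dvd_pow h))
  obtain ⟨a, ha⟩ := Equiv.Perm.exists_fixed_point_of_prime hnd hσq
  refine ⟨a.1, a.2.1, fun haN => hdN ?_, ?_⟩
  · have h1 := mul_mem haN (inv_mem a.2.2)
    rwa [mul_inv_rev, inv_inv, mul_inv_cancel_left] at h1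
  · have h1 : y * a.1 * y⁻¹ = a.1 := congrArg Subtype.val ha
    rw [mul_inv_eq_iff_eq_mul] at h1
    exact h1.symm

/-- the normalizers of `p`-subgroups not contained in `N` are `p`-groups -/
theorem normalizer_pgroup (heq : ∀ x : G, x ∉ N → ∀ n ∈ N, orderOf (x * n) = orderOf x)
    (hnil : ¬ Group.IsNilpotent N) {p : ℕ} (hp : p.Prime) {D : Subgroup G} (hD : IsPGroup p D)
    (hDN : ¬ D ≤ N) : IsPGroup p (normalizer (D : Set G)) := by
  have hpf := Fact.mk hp
  by_contra hcon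
  -- an element of prime order
  have h1 : ∃ q : ℕ, q.Prime ∧ q ≠ p ∧ q ∣ Nat.card (normalizer (D : Set G)) := by
    by_contra h2
    push Not at h2
    apply hcon
    rw [IsPGroup.iff_card]
    refine ⟨_, (Nat.eq_prime_pow_of_unique_prime_dvd Nat.card_pos.ne' fun {d} hd hdvd => ?_)⟩
    by_contra h3
    exact h2 d hd h3 hdvd
  obtain ⟨q, hq, hqp, hdvd⟩ := h1
  have := Fact.mk hq
  obtain ⟨⟨y, hyD⟩, hy⟩ := exists_prime_orderOf_dvd_card' q hdvd
  rw [Subgroup.orderOf_mk] at hy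
  have hyN := no_prime heq hnil hq hy
  obtain ⟨a, haD, haN, hcomm⟩ := exists_comm hp hq hqp hD hDN hyN hyD hy
  obtain ⟨k, hk⟩ := hD ⟨a, haD⟩
  exact not_comm heq hp hq hqp haN (congrArg Subtype.val hk) hyN hy hcomm

omit [Finite G] in
/-- normalizers grow in `p`-groups -/
theorem exists_normalizer {p : ℕ} [Fact p.Prime] {D P : Subgroup G} [Finite P] (hP : IsPGroup p P) (h : D < P) :
    ∃ x ∈ P, x ∉ D ∧ x ∈ normalizer (D : Set G) := by
  have hnil : Group.IsNilpotent P := hP.isNilpotent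
  have h1 : D.subgroupOf P < ⊤ := by
    rw [lt_top_iff_ne_top, Ne, Subgroup.subgroupOf_eq_top]
    exact fun h2 => absurd (lt_of_lt_of_le h h2) (lt_irrefl _)
  have h2 := Group.normalizerCondition_of_isNilpotent (D.subgroupOf P) h1
  obtain ⟨x, hx, hxD⟩ := SetLike.exists_of_lt h2
  refine ⟨x.1, x.2, fun h3 => hxD (mem_subgroupOf.2 h3), ?_⟩
  rw [mem_normalizer_iff]
  intro g
  have hle := h.le
  constructor
  · intro hg
    exact mem_subgroupOf.1 ((mem_normalizer_iff.1 hx ⟨g, hle hg⟩).1 (mem_subgroupOf.2 hg))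
  · intro hg
    have h4 : g ∈ P := by
      have h5 : g = (x : G)⁻¹ * ((x : G) * g * (x : G)⁻¹) * x := by group
      rw [h5]
      exact mul_mem (mul_mem (inv_mem x.2) (hle hg)) x.2
    exact mem_subgroupOf.1 ((mem_normalizer_iff.1 hx ⟨g, h4⟩).2 (mem_subgroupOf.2 hg))

/-- a `p`-subgroup not contained in `N` is in only one Sylow `p`-subgroup -/
theorem sylow_unique (heq : ∀ x : G, x ∉ N → ∀ n ∈ N, orderOf (x * n) = orderOf x)
    (hnil : ¬ Group.IsNilpotent N) {p : ℕ} [hp : Fact p.Prime] :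
    ∀ (n : ℕ) (P Q : Sylow p G), Nat.card G - Nat.card ((P : Subgroup G) ⊓ Q : Subgroup G) = n →
      ¬ ((P : Subgroup G) ⊓ Q ≤ N) → P = Q := by
  intro n
  induction n using Nat.strong_induction_on with
  | _ n ih =>
  intro P Q hn hPQ
  by_contra hne
  set D : Subgroup G := (P : Subgroup G) ⊓ Q with hD
  have hDp : IsPGroup p D := P.isPGroup'.to_le inf_le_left
  have hNp := normalizer_pgroup heq hnil hp.out hDp hPQ
  obtain ⟨R, hR⟩ := hNp.exists_le_sylow
  have key : ∀ S : Sylow p G, D < S → S = R := by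
    intro S hS
    obtain ⟨x, hxS, hxD, hxn⟩ := exists_normalizer S.isPGroup' hS
    have hlt : D < ((S : Subgroup G) ⊓ R : Subgroup G) := by
      refine lt_of_le_of_ne (le_inf hS.le (le_normalizer.trans hR)) fun h => hxD ?_
      rw [h]
      exact mem_inf.2 ⟨hxS, hR hxn⟩
    have hc : Nat.card D < Nat.card ((S : Subgroup G) ⊓ R : Subgroup G) := Set.Finite.card_lt_card (Set.toFinite _) hlt
    have hc2 : Nat.card ((S : Subgroup G) ⊓ R : Subgroup G) ≤ Nat.card G := Subgroup.card_le_card_group _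
    exact ih _ (by omega) S R rfl fun h => hPQ (hlt.le.trans h)
  have hDP : D < P := by
    refine lt_of_le_of_ne inf_le_left fun h => hne ?_
    have h1 : (P : Subgroup G) ≤ Q := by rw [← h]; exact inf_le_right
    exact (Sylow.ext (P.is_maximal' Q.isPGroup' h1)).symm
  have hDQ : D < Q := by
    refine lt_of_le_of_ne inf_le_right fun h => hne ?_
    have h1 : (Q : Subgroup G) ≤ P := by rw [← h]; exact inf_le_left
    exact Sylow.ext (Q.is_maximal' P.isPGroup' h1)
  exact hne ((key P hDP).trans (key Q hDQ).symm)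

/-- Sylow subgroups not contained in `N` are self-normalizing -/
theorem normalizer_eq (heq : ∀ x : G, x ∉ N → ∀ n ∈ N, orderOf (x * n) = orderOf x)
    (hnil : ¬ Group.IsNilpotent N) {p : ℕ} [hp : Fact p.Prime] (P : Sylow p G) (hPN : ¬ (P : Subgroup G) ≤ N) :
    normalizer ((P : Subgroup G) : Set G) = P :=
  P.is_maximal' (normalizer_pgroup heq hnil hp.out P.isPGroup' hPN) le_normalizer

theorem inf_le (heq : ∀ x : G, x ∉ N → ∀ n ∈ N, orderOf (x * n) = orderOf x)
    (hnil : ¬ Group.IsNilpotent N) {p : ℕ} [hp : Fact p.Prime] (P : Sylow p G) {g : G} (hg : g ∉ (P : Subgroup G)) :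
    (P : Subgroup G) ⊓ (P : Subgroup G).map (MulAut.conj g).toMonoidHom ≤ N := by
  by_contra hcon
  have h1 : ((g • P : Sylow p G) : Subgroup G) = (P : Subgroup G).map (MulAut.conj g).toMonoidHom := rfl
  rw [← h1] at hcon
  have h2 := sylow_unique heq hnil _ P (g • P) rfl hcon
  have h3 : g ∈ normalizer ((P : Subgroup G) : Set G) := Sylow.smul_eq_iff_mem_normalizer.1 h2.symm
  rw [normalizer_eq heq hnil P (fun h => hcon (inf_le_left.trans h))] at h3
  exact hg h3

/-- at least half of the elements are `p`-elements outside `N` -/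
theorem count (heq : ∀ x : G, x ∉ N → ∀ n ∈ N, orderOf (x * n) = orderOf x)
    (hnil : ¬ Group.IsNilpotent N) {p : ℕ} (hp : p.Prime) (hdvd : p ∣ N.index) :
    Nat.card G ≤ 2 * Nat.card {x : G // x ∉ N ∧ ∃ k : ℕ, x ^ p ^ k = 1} := by
  have hpf := Fact.mk hp
  obtain ⟨P⟩ : Nonempty (Sylow p G) := inferInstance
  have hSN : ∀ S : Sylow p G, ¬ (S : Subgroup G) ≤ N := by
    intro S hS
    have h1 : (S : Subgroup G).index = (S : Subgroup G).relIndex N * N.index := (relIndex_mul_index hS).symm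
    exact S.not_dvd_index (by rw [h1]; exact hdvd.mul_left _)
  let f : (Σ S : Sylow p G, {x : G // x ∈ S ∧ x ∉ N}) → {x : G // x ∉ N ∧ ∃ k : ℕ, x ^ p ^ k = 1} :=
    fun z => ⟨z.2.1, z.2.2.2, by
      obtain ⟨k, hk⟩ := z.1.isPGroup' ⟨z.2.1, z.2.2.1⟩
      exact ⟨k, congrArg Subtype.val hk⟩⟩
  have hf : Function.Injective f := by
    rintro ⟨S, x, hx, hxN⟩ ⟨S', x', hx', hxN'⟩ h
    have hxx : x = x' := congrArg Subtype.val h
    subst hxx
    have h2 := sylow_unique heq hnil _ S S' rfl fun h => hxN (h (mem_inf.2 ⟨hx, hx'⟩))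
    subst h2
    rfl
  have h1 := Nat.card_le_card_of_injective f hf
  have := Fintype.ofFinite (Sylow p G)
  rw [Nat.card_sigma] at h1
  have h2 : ∀ S : Sylow p G, Nat.card P ≤ 2 * Nat.card {x : G // x ∈ S ∧ x ∉ N} := by
    intro S
    have h3 : Nat.card P = Nat.card S := Nat.card_congr (Sylow.equiv P S).toEquiv
    rw [h3]
    -- translate by an element outside
    obtain ⟨s, hs, hsN⟩ := SetLike.not_le_iff_exists.1 (hSN S)
    have h4 : Nat.card S ≤ Nat.card ({x : G // x ∈ S ∧ x ∉ N} ⊕ {x : G // x ∈ S ∧ x ∉ N}) := by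
      classical
      let g : S → {x : G // x ∈ S ∧ x ∉ N} ⊕ {x : G // x ∈ S ∧ x ∉ N} := fun x =>
        if h : (x : G) ∈ N then Sum.inl ⟨s * x, mul_mem hs x.2, fun h5 => hsN (by
          have := mul_mem h5 (inv_mem h); rwa [mul_inv_cancel_right] at this)⟩
        else Sum.inr ⟨x, x.2, h⟩
      refine Nat.card_le_card_of_injective g fun x y hxy => ?_
      simp only [g] at hxy
      split_ifs at hxy with hx hy hy
      · have h5 := congrArg Subtype.val (Sum.inl.inj hxy)
        exact Subtype.ext (mul_left_cancel h5)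
      · have h5 := congrArg Subtype.val (Sum.inr.inj hxy)
        exact Subtype.ext h5
    rw [Nat.card_sum] at h4
    omega
  have h5 : Nat.card G = ∑ _S : Sylow p G, Nat.card P := by
    rw [Finset.sum_const, Finset.card_univ, smul_eq_mul, ← Nat.card_eq_fintype_card,
      P.card_eq_index_normalizer]
    change _ = (normalizer ((P : Subgroup G) : Set G)).index * _
    rw [normalizer_eq heq hnil P (hSN P), mul_comm]
    exact ((P : Subgroup G).card_mul_index).symm
  calc Nat.card G = ∑ _S : Sylow p G, Nat.card P := h5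
    _ ≤ ∑ S : Sylow p G, 2 * Nat.card {x : G // x ∈ S ∧ x ∉ N} := Finset.sum_le_sum fun S _ => h2 S
    _ = 2 * ∑ S : Sylow p G, Nat.card {x : G // x ∈ S ∧ x ∉ N} := by rw [Finset.mul_sum]
    _ ≤ _ := Nat.mul_le_mul_left 2 h1

/-- **The quotient is a `p`-group.** -/
theorem prime_unique (heq : ∀ x : G, x ∉ N → ∀ n ∈ N, orderOf (x * n) = orderOf x)
    (hnil : ¬ Group.IsNilpotent N) {p q : ℕ} (hp : p.Prime) (hq : q.Prime) (hdp : p ∣ N.index) (hdq : q ∣ N.index) :
    p = q := by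
  by_contra hne
  have h1 := count heq hnil hp hdp
  have h2 := count heq hnil hq hdq
  let f : {x : G // x ∉ N ∧ ∃ k : ℕ, x ^ p ^ k = 1} ⊕ {x : G // x ∉ N ∧ ∃ k : ℕ, x ^ q ^ k = 1} → {x : G // x ∉ N} :=
    Sum.elim (fun x => ⟨x.1, x.2.1⟩) fun x => ⟨x.1, x.2.1⟩
  have hf : Function.Injective f := by
    have key : ∀ x : G, x ∉ N → (∃ k : ℕ, x ^ p ^ k = 1) → (∃ k : ℕ, x ^ q ^ k = 1) → False := by
      rintro x hx ⟨k, hk⟩ ⟨l, hl⟩
      have h3 : (p ^ k).Coprime (q ^ l) := Nat.Coprime.pow _ _ ((Nat.coprime_primes hp hq).2 hne)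
      have h4 := Nat.dvd_gcd (orderOf_dvd_of_pow_eq_one hk) (orderOf_dvd_of_pow_eq_one hl)
      rw [Nat.Coprime.gcd_eq_one h3, Nat.dvd_one, orderOf_eq_one_iff] at h4
      exact hx (h4 ▸ one_mem N)
    intro x y hxy
    have h3 : (f x).1 = (f y).1 := congrArg Subtype.val hxy
    rcases x with x | x <;> rcases y with y | y
    · exact congrArg Sum.inl (Subtype.ext h3)
    · have h3' : x.1 = y.1 := h3
      exact (key x.1 x.2.1 x.2.2 (h3' ▸ y.2.2)).elim
    · have h3' : x.1 = y.1 := h3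
      exact (key y.1 y.2.1 y.2.2 (h3' ▸ x.2.2)).elim
    · exact congrArg Sum.inr (Subtype.ext h3)
  have h3 := Nat.card_le_card_of_injective f hf
  rw [Nat.card_sum] at h3
  have h4 : Nat.card {x : G // x ∉ N} < Nat.card G :=
    Finite.card_subtype_lt (x := (1 : G)) (fun h => h (one_mem N))
  omega

/-- **Claim 1.** -/
theorem exists_prime (heq : ∀ x : G, x ∉ N → ∀ n ∈ N, orderOf (x * n) = orderOf x)
    (hnil : ¬ Group.IsNilpotent N) (hN : N ≠ ⊤) :
    ∃ p : ℕ, p.Prime ∧ ∀ x : G, x ∉ N → ∃ k : ℕ, orderOf x = p ^ k := by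
  have hidx : N.index ≠ 1 := fun h => hN (Subgroup.index_eq_one.1 h)
  obtain ⟨p, hp, hdp⟩ := Nat.exists_prime_and_dvd hidx
  refine ⟨p, hp, fun x hx => ?_⟩
  have hidx0 : N.index ≠ 0 := Subgroup.FiniteIndex.index_ne_zero
  have hpow := Nat.eq_prime_pow_of_unique_prime_dvd hidx0 fun {d} hd hdvd => (prime_unique heq hnil hd hp hdvd hdp)
  set m := N.index.primeFactorsList.length with hm
  -- `p'`-elements are in `N`
  have hNp : ∀ (y : G) (l : ℕ), ¬ p ∣ l → y ^ l = 1 → y ∈ N := by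
    intro y l hl hy
    have h1 : (QuotientGroup.mk y : G ⧸ N) ^ (p ^ m) = 1 := by
      rw [← hpow, Subgroup.index]
      exact pow_card_eq_one'
    have h2 : (QuotientGroup.mk y : G ⧸ N) ^ l = 1 := by
      rw [← QuotientGroup.mk_pow, hy]; rfl
    have h3 := Nat.dvd_gcd (orderOf_dvd_of_pow_eq_one h1) (orderOf_dvd_of_pow_eq_one h2)
    rw [Nat.Coprime.gcd_eq_one (Nat.Coprime.pow_left m ((Nat.Prime.coprime_iff_not_dvd hp).2 hl)), Nat.dvd_one,
      orderOf_eq_one_iff] at h3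
    exact (QuotientGroup.eq_one_iff y).1 h3
  have ho : orderOf x ≠ 0 := (orderOf_pos x).ne'
  obtain ⟨a, l, hl, hal⟩ := Nat.exists_eq_pow_mul_and_not_dvd ho p hp.ne_one
  have hcop : (p ^ a).Coprime l := Nat.Coprime.pow_left a ((Nat.Prime.coprime_iff_not_dvd hp).2 hl)
  obtain ⟨c, hc1, hc2⟩ := Nat.chineseRemainder hcop 1 0
  have hcl : l ∣ c := (Nat.modEq_zero_iff_dvd).1 hc2
  have hn : ((x ^ c)⁻¹ * x) ^ l = 1 := by
    have h1 : Commute (x ^ c)⁻¹ x := ((Commute.refl x).pow_left c).inv_left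
    rw [h1.mul_pow, inv_pow, inv_mul_eq_one, ← pow_mul]
    apply pow_inj_mod.2
    rw [hal]
    have h2 : c * l ≡ 1 * l [MOD p ^ a * l] := Nat.ModEq.mul_right' l hc1
    rw [one_mul] at h2
    exact h2
  have hnN := hNp _ l hl hn
  have hxc : x ^ c ∉ N := fun h => hx (by
    have := mul_mem h hnN
    rwa [mul_inv_cancel_left] at this)
  have h1 := heq (x ^ c) hxc _ hnN
  rw [mul_inv_cancel_left] at h1
  have h2 : orderOf (x ^ c) ∣ p ^ a := by
    apply orderOf_dvd_of_pow_eq_one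
    obtain ⟨d, rfl⟩ := hcl
    rw [← pow_mul, show l * d * p ^ a = (p ^ a * l) * d by ring, pow_mul, ← hal, pow_orderOf_eq_one, one_pow]
  rw [← h1] at h2
  obtain ⟨k, -, hk⟩ := (Nat.dvd_prime_pow hp).1 h2
  exact ⟨k, hk⟩

end Cfsg.Agent.H69.EqOrd
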