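import Mathlib
import Cfsg.Agent.H69.EqOrd
import Cfsg.Agent.H69.EqChief

/-!
# Equal order pairs with non-solvable kernel

* `qh` : the action of `G` on `U / V`, `U`, `V` normal in `G`;
* `exists_chief` : a non-solvable normal subgroup contains a non-solvable chief factor;
* `chief_core` : the minimal normal subgroups of the non-solvable chief factors below `N` of an equal order pair have
  an outer automorphism `u` with `PCos p u`.
-/

set_option autoImplicit false

namespace Cfsg.Agent.H69.EqMain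

open Subgroup Cfsg.Agent.H69.CosetP Cfsg.Agent.H69.EqChief

variable {G : Type*} [Group G]

theorem map_conjNormal (U V : Subgroup G) [U.Normal] [V.Normal] (g : G) :
    (V.subgroupOf U).map ((MulAut.conjNormal g : MulAut U) : U →* U) = V.subgroupOf U := by
  have key : ∀ g : G, (V.subgroupOf U).map ((MulAut.conjNormal g : MulAut U) : U →* U) ≤ V.subgroupOf U := by
    rintro g _ ⟨x, hx, rfl⟩
    rw [mem_subgroupOf]
    change ((MulAut.conjNormal g x : U) : G) ∈ V
    rw [MulAut.conjNormal_apply]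
    exact (inferInstance : V.Normal).conj_mem _ (mem_subgroupOf.1 hx) g
  refine le_antisymm (key g) fun x hx => ?_
  refine ⟨MulAut.conjNormal g⁻¹ x, key g⁻¹ ⟨x, hx, rfl⟩, ?_⟩
  change MulAut.conjNormal g (MulAut.conjNormal g⁻¹ x) = x
  rw [← MulAut.mul_apply, ← map_mul, mul_inv_cancel, map_one, MulAut.one_apply]

/-- the action of `G` on `U / V` -/
def qh (U V : Subgroup G) [U.Normal] [V.Normal] : G →* MulAut (U ⧸ V.subgroupOf U) where
  toFun g := QuotientGroup.congr _ _ (MulAut.conjNormal g) (map_conjNormal U V g)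
  map_one' := by
    apply MulEquiv.ext
    intro x
    obtain ⟨x, rfl⟩ := QuotientGroup.mk_surjective x
    rw [QuotientGroup.congr_mk, map_one]
    rfl
  map_mul' g h := by
    apply MulEquiv.ext
    intro x
    obtain ⟨x, rfl⟩ := QuotientGroup.mk_surjective x
    rw [QuotientGroup.congr_mk, map_mul, MulAut.mul_apply, MulAut.mul_apply, QuotientGroup.congr_mk,
      QuotientGroup.congr_mk]

theorem qh_mk (U V : Subgroup G) [U.Normal] [V.Normal] (g : G) (x : U) :
    qh U V g (QuotientGroup.mk x) = QuotientGroup.mk (MulAut.conjNormal g x) := rfl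

theorem qh_inner (U V : Subgroup G) [U.Normal] [V.Normal] (x : U) : qh U V x = MulAut.conj (QuotientGroup.mk x) := by
  apply MulEquiv.ext
  intro y
  obtain ⟨y, rfl⟩ := QuotientGroup.mk_surjective y
  rw [qh_mk, MulAut.conj_apply, ← QuotientGroup.mk_inv, ← QuotientGroup.mk_mul, ← QuotientGroup.mk_mul]
  congr 1

theorem chief (U V : Subgroup G) [U.Normal] [V.Normal] (hVU : V ≤ U)
    (hch : ∀ W : Subgroup G, W.Normal → V ≤ W → W ≤ U → W = V ∨ W = U) (J : Subgroup (U ⧸ V.subgroupOf U))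
    (hJ : ∀ g : G, J.map (qh U V g : (U ⧸ V.subgroupOf U) →* (U ⧸ V.subgroupOf U)) ≤ J) : J = ⊥ ∨ J = ⊤ := by
  set W : Subgroup G := (J.comap (QuotientGroup.mk' (V.subgroupOf U))).map U.subtype with hW
  have hmem : ∀ x : U, (x : G) ∈ W ↔ (QuotientGroup.mk x : U ⧸ V.subgroupOf U) ∈ J := by
    intro x
    constructor
    · rintro ⟨y, hy, hyx⟩
      have : y = x := Subtype.ext hyx
      rw [← this]
      exact hy
    · intro hx
      exact ⟨x, hx, rfl⟩
  have hWU : W ≤ U := map_subtype_le _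
  have hWn : W.Normal := by
    refine ⟨fun x hx g => ?_⟩
    have h1 : x ∈ U := hWU hx
    have h2 := (hmem ⟨x, h1⟩).1 hx
    have h3 := hJ g ⟨_, h2, rfl⟩
    exact (hmem (MulAut.conjNormal g ⟨x, h1⟩)).2 h3
  have hVW : V ≤ W := by
    intro x hx
    refine (hmem ⟨x, hVU hx⟩).2 ?_
    have : (QuotientGroup.mk (⟨x, hVU hx⟩ : U) : U ⧸ V.subgroupOf U) = 1 :=
      (QuotientGroup.eq_one_iff _).2 (mem_subgroupOf.2 hx)
    rw [this]
    exact one_mem J
  rcases hch W hWn hVW hWU with h | h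
  · left
    rw [eq_bot_iff]
    intro x hx
    obtain ⟨x, rfl⟩ := QuotientGroup.mk_surjective x
    have h1 := (hmem x).2 hx
    rw [h] at h1
    rw [mem_bot]
    exact (QuotientGroup.eq_one_iff _).2 (mem_subgroupOf.2 h1)
  · right
    rw [eq_top_iff]
    intro x _
    obtain ⟨x, rfl⟩ := QuotientGroup.mk_surjective x
    refine (hmem x).1 ?_
    rw [h]
    exact x.2

/-- a non-solvable chief factor -/
theorem exists_chief [Finite G] {N : Subgroup G} [N.Normal] (hN : ¬ Group.IsSolvable N) :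
    ∃ U V : Subgroup G, ∃ (_ : U.Normal) (_ : V.Normal), V < U ∧ U ≤ N ∧
      (∀ W : Subgroup G, W.Normal → V ≤ W → W ≤ U → W = V ∨ W = U) ∧
      ¬ Group.IsSolvable (U ⧸ V.subgroupOf U) := by
  obtain ⟨U, ⟨hUn, hUN, hUs⟩, hUmin⟩ := exists_minimal_of_wellFoundedLT
    (fun U : Subgroup G => U.Normal ∧ U ≤ N ∧ ¬ Group.IsSolvable U) ⟨N, inferInstance, le_rfl, hN⟩
  have hU : U ≠ ⊥ := by
    rintro rfl
    exact hUs inferInstance
  obtain ⟨V, ⟨hVn, hVU⟩, hVmax⟩ := exists_maximal_of_wellFoundedGT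
    (fun V : Subgroup G => V.Normal ∧ V < U) ⟨⊥, inferInstance, bot_lt_iff_ne_bot.2 hU⟩
  refine ⟨U, V, hUn, hVn, hVU, hUN, fun W hWn hVW hWU => ?_, fun hs => ?_⟩
  · rcases hWU.lt_or_eq with h | h
    · exact Or.inl (le_antisymm (hVmax ⟨hWn, h⟩ hVW) hVW)
    · exact Or.inr h
  · apply hUs
    have hVs : Group.IsSolvable V := by
      by_contra hVs
      have := hUmin ⟨hVn, hVU.le.trans hUN, hVs⟩ hVU.le
      exact absurd (lt_of_lt_of_le hVU this) (lt_irrefl _)
    rw [Group.isSolvable_iff_subgroup_quotient (V.subgroupOf U)]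
    have e : V.subgroupOf U ≃* V := Subgroup.subgroupOfEquivOfLe hVU.le
    exact ⟨Group.isSolvable_of_isSolvable_injective (f := e.toMonoidHom) e.injective, hs⟩

/-- a minimal normal subgroup -/
theorem exists_minN {Q : Type*} [Group Q] [Finite Q] (hQ : ¬ Group.IsSolvable Q) : ∃ L : Subgroup Q, MinN L := by
  have hnt : (⊤ : Subgroup Q) ≠ ⊥ := by
    intro h
    exact hQ (Group.isSolvable_of_top_eq_bot _ h)
  obtain ⟨L, ⟨hL, hL0⟩, hmin⟩ := exists_minimal_of_wellFoundedLT
    (fun L : Subgroup Q => L.Normal ∧ L ≠ ⊥) ⟨⊤, inferInstance, hnt⟩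
  refine ⟨L, hL, hL0, fun J hJ hJL => ?_⟩
  by_cases h : J = ⊥
  · exact Or.inl h
  · exact Or.inr (le_antisymm hJL (hmin ⟨hJ, h⟩ hJL))

/-- **The chief factors of equal order pairs.** -/
theorem chief_core [Finite G] {N : Subgroup G} [N.Normal] (hN : N ≠ ⊤) {p : ℕ} (hp : p.Prime)
    (hpow : ∀ x : G, x ∉ N → ∃ k : ℕ, orderOf x = p ^ k) (U V : Subgroup G) [U.Normal] [V.Normal] (hVU : V < U)
    (hUN : U ≤ N) (hch : ∀ W : Subgroup G, W.Normal → V ≤ W → W ≤ U → W = V ∨ W = U)
    (hns : ¬ Group.IsSolvable (U ⧸ V.subgroupOf U)) {L : Subgroup (U ⧸ V.subgroupOf U)} (hL : MinN L) :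
    IsSimpleGroup L ∧ (∃ x y : L, x * y ≠ y * x) ∧ ∃ u : MulAut L, u ∉ (MulAut.conj : L →* MulAut L).range ∧
      PCos p u := by
  obtain ⟨a, ha⟩ : ∃ a : G, a ∉ N := by
    by_contra hcon
    push Not at hcon
    exact hN (eq_top_iff.2 fun x _ => hcon x)
  refine EqChief.main (A := qh U V) (chief U V hVU.le hch) hns hL hp (a := a) fun x => ?_
  obtain ⟨x, rfl⟩ := QuotientGroup.mk_surjective x
  rw [← qh_inner, ← map_mul]
  obtain ⟨k, hk⟩ := hpow (a * x) (fun h => ha (by
    have := mul_mem h (inv_mem (hUN x.2))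
    rwa [mul_inv_cancel_right] at this))
  refine ⟨k, ?_⟩
  rw [← map_pow, ← hk, pow_orderOf_eq_one, map_one]

end Cfsg.Agent.H69.EqMain
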